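import Groth.Agent.Etbc.H188.BaseChangeR
import Groth.Agent.Etbc.H188.LTor
import Groth.Agent.EtpbcB.SurjFaithful
import Groth.Agent.Sga4B.HpullSquare

/-!
# The comparison condition from acyclicity of geometric fibres, affine base

`compN`: `g : X ⟶ Y` qcqs, `Y` affine, the geometric fibres of `g` are `n`-acyclic and the
geometric fibres of the morphisms of strict localizations of `g` are `(n-1)`-acyclic; then
`EtAcyc.CompN g L n`.
-/

set_option autoImplicit false
universe u

open CategoryTheory CategoryTheory.Limits AlgebraicGeometry Opposite IsLocalRing Abelian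

namespace Groth.Agent.Etbc.H188.Core

open EtCoh Groth.Agent.EtpbcB Groth.Agent.EtpbcB.BCIso Groth.Agent.EtpbcB.BCCalc
  Groth.Agent.Etrest.StrictLoc Groth.Agent.Sga1.UlaRes Groth.Agent.Sga1.UlaSL
  Groth.Agent.Etbc.H188.ZDBase Groth.Agent.Etbc.H188.GeoPt Groth.Agent.Etbc.H188.LTor

/-- Truncated Leray: `H^q(Y, f_* N) → H^q(X, N)` is injective for `q ≤ n + 1` if `R^i f_* N = 0` for
`1 ≤ i ≤ n`. -/
theorem subsingleton_H_push {X Y : Scheme.{u}} (f : X ⟶ Y) (N : Ab X) (n : ℕ)
    (hR : ∀ q : ℕ, 1 ≤ q → q ≤ n → IsZero ((Rpush f q).obj N)) (q : ℕ) (hq : q ≤ n + 1)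
    (h : Subsingleton (H X N q)) : Subsingleton (H Y ((push f).obj N) q) := by
  obtain ⟨b1, b2⟩ := H234.LerayRange.cmp_counit_range (pull f) (pullPushAdj f) (const Y ℤ) n N
    (fun q h1 h2 => H234.LerayRange.acy_of_isZero _ (hR q h1 h2))
  have h3 : Subsingleton (Ext ((pull f).obj (const Y ℤ)) N q) := by
    refine subsingleton_of_forall_eq 0 fun a => ?_
    have h4 : (Ext.mk₀ (EtCore.pullConst f ℤ).inv).comp a (zero_add q) = 0 :=
      @Subsingleton.elim _ h _ _
    have h5 := congrArg (fun e => (Ext.mk₀ (EtCore.pullConst f ℤ).hom).comp e (zero_add q)) h4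
    simpa only [Ext.mk₀_comp_mk₀_assoc, Iso.hom_inv_id, Ext.mk₀_id_comp, Ext.comp_zero] using h5
  have h6 : Function.Injective (Etbase.ExtCompare.cmp (F := N) (pull f) (const Y ℤ)
      ((pullPushAdj f).counit.app N) q) := by
    rcases Nat.lt_or_ge n q with h7 | h7
    · obtain rfl : q = n + 1 := by omega
      exact b2
    · exact (b1 q h7).1
  exact h6.subsingleton

section direct

variable {Y P : Scheme.{u}} {r : P ⟶ Y} [IsAffineHom r] (hP : IsZD P)

include hP in
theorem isZero_Rpush_r (E : Ab P) (q : ℕ) (hq : 1 ≤ q) : IsZero ((Rpush r q).obj E) := by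
  apply Etcore.Stalks.isZero_of_stalks
  intro y
  obtain ⟨A, _, _, σ, hσ, hy⟩ := exists_isStrictLoc Y y
  have := hσ.sepClosed
  refine ⟨ResidueField A, inferInstance, inferInstance, resPt A ≫ σ, ?_, ?_⟩
  · rw [Scheme.Hom.comp_apply, resPt_closedPoint, hy]
  · obtain ⟨e⟩ := Sga4h.StalkAcyc.nonempty_stalk_iso r E hσ q
    have h1 : Subsingleton (H (pullback r σ) ((pull (pullback.fst r σ)).obj E) q) :=
      (BaseChangeR.isZD₁ hP hσ (r := r)).subsingleton_H _ q hq
    have h2 : IsZero (AddCommGrpCat.of (H (pullback r σ) ((pull (pullback.fst r σ)).obj E) q)) :=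
      @AddCommGrpCat.isZero_of_subsingleton _ h1
    exact h2.of_iso e

include hP in
theorem subsingleton_H_r (E : Ab P) (q : ℕ) (hq : 1 ≤ q) :
    Subsingleton (H Y ((push r).obj E) q) :=
  subsingleton_H_push r E q (fun i hi _ => isZero_Rpush_r hP E i hi) q (by omega)
    (hP.subsingleton_H E q hq)

end direct

section main

variable {X Y P XP : Scheme.{u}} {g : X ⟶ Y} {r : P ⟶ Y} {r' : XP ⟶ X} {gP : XP ⟶ P}
  (h : IsPullback gP r' r g) [IsAffineHom r] (hP : IsZD P) (hr : AlgRes r) {L : Set ℕ} {n : ℕ}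
  [QuasiCompact g] [QuasiSeparated g]
  (hloc : EtAcyc.OnStrictLocalizations g (fun _ _ k => EtAcyc.GeomFibresAcyclicN L (n - 1) k))
  (hfib : EtAcyc.GeomFibresAcyclicN L n g)
  {E : Ab P} (hE : EtAcyc.IsLTorsion L E)

include h hr hfib hP hE in
theorem gP_facts : IsIso ((pullPushAdj gP).unit.app E) ∧
    ∀ q : ℕ, q ≤ n → Function.Bijective (EtCore.Hpull gP E q) := by
  have i1 : QuasiCompact gP := MorphismProperty.of_isPullback h.flip inferInstance
  have i2 : QuasiSeparated gP := MorphismProperty.of_isPullback h.flip inferInstance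
  have h1 : EtAcyc.GeomFibresAcyclicN L n gP := geomFibres_of_isPullback h.flip hr hfib
  have H : ∀ (K : Type u) [Field K] [IsSepClosed K] (τ : Spec (CommRingCat.of K) ⟶ P),
      IsStrictLoc τ → ∀ q : ℕ, q ≤ n →
        Function.Bijective (EtCore.Hpull (pullback.snd gP τ) ((pull τ).obj E) q) := by
    intro K _ _ τ hτ q hq
    have h2 := isAcyclicSchemeN_fibre h1 (algPt_of_isStrictLoc hτ)
      (IsPullback.of_hasPullback gP τ)
    have i3 : CompactSpace ↥(pullback gP τ) :=
      (quasiCompact_iff_compactSpace (pullback.snd gP τ)).1 inferInstance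
    have i4 : QuasiSeparatedSpace ↥(pullback gP τ) :=
      (quasiSeparated_iff_quasiSeparatedSpace (pullback.snd gP τ)).1 inferInstance
    exact PointLemma.bijective_Hpull _ h2 _ (H231.AcycComp.isLTorsion_pull L τ E hE) q hq
  exact ⟨(FibreLemma.fibre_lemma hP gP E n H).1, (FibreLemma.Hpull_bijective hP gP E n H).1⟩

include h hr hfib hP hE hloc in
theorem isIso_unit_g : IsIso ((pullPushAdj g).unit.app ((push r).obj E)) := by
  have h1 := (gP_facts h hP hr hfib hE).1
  have h2 := BaseChangeR.isIso_baseChange0 h hP hr hloc hE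
  have e := unit_baseChange0 h.w E
  have h3 : IsIso ((pullPushAdj g).unit.app ((push r).obj E) ≫
      (push g).map (baseChange0 r g r' gP h.w E)) := by
    rw [e]
    infer_instance
  exact IsIso.of_isIso_comp_right _ ((push g).map (baseChange0 r g r' gP h.w E))

include h hr hfib hP hE hloc in
theorem subsingleton_H_g (q : ℕ) (hq : 1 ≤ q) (hqn : q ≤ n) :
    Subsingleton (H X ((pull g).obj ((push r).obj E)) q) := by
  have h1 := (gP_facts h hP hr hfib hE).2 q hqn
  have h2 : Subsingleton (H P E q) := hP.subsingleton_H E q hq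
  have h3 : Subsingleton (H XP ((pull gP).obj E) q) := h1.2.subsingleton
  have h4 : Subsingleton (H X ((push r').obj ((pull gP).obj E)) q) :=
    subsingleton_H_push r' _ (n - 1)
      (fun i hi hi' => BaseChangeR.isZero_Rpush h hP hr hloc hE i hi hi') q (by omega) h3
  have h5 := BaseChangeR.isIso_baseChange0 h hP hr hloc hE
  have h6 : IsZero ((HF X q).obj ((push r').obj ((pull gP).obj E))) :=
    @AddCommGrpCat.isZero_of_subsingleton _ h4
  exact AddCommGrpCat.subsingleton_of_isZero
    (h6.of_iso ((HF X q).mapIso (asIso (baseChange0 r g r' gP h.w E))))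

end main

/-- The main theorem: the comparison condition over an affine base. -/
theorem compN {X Y : Scheme.{u}} (g : X ⟶ Y) [QuasiCompact g] [QuasiSeparated g] [IsAffine Y]
    {L : Set ℕ} {n : ℕ}
    (hloc : EtAcyc.OnStrictLocalizations g (fun _ _ k => EtAcyc.GeomFibresAcyclicN L (n - 1) k))
    (hfib : EtAcyc.GeomFibresAcyclicN L n g) : EtAcyc.CompN g L n := by
  intro F hF _
  obtain ⟨P, r, hP, hr, hs, ha⟩ := exists_cover Y
  have h : IsPullback (pullback.fst r g) (pullback.snd r g) r g := IsPullback.of_hasPullback r g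
  have main : ∀ F : Ab Y, EtAcyc.IsLTorsion L F → ∃ (S : ShortComplex (Ab Y)) (_ : S.ShortExact)
      (_ : S.X₁ = F), EtAcyc.IsLTorsion L S.X₃ ∧ EtAcyc.IsLTorsion L S.X₂ ∧
      (∀ q : ℕ, Subsingleton (H Y S.X₂ (q + 1))) ∧
      ∀ q ≤ n, Function.Bijective (EtCore.Hpull g S.X₂ q) := by
    intro F hF
    let E : Ab P := (pull r).obj F
    have hE : EtAcyc.IsLTorsion L E := H231.AcycComp.isLTorsion_pull L r F hF
    have hE' : EtAcyc.IsLTorsion L ((push r).obj E) := isLTorsion_push r E hE
    have hm : Mono ((pullPushAdj r).unit.app F) := EtpbcB.SurjFaithful.mono_unit r F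
    let S : ShortComplex (Ab Y) := ShortComplex.mk ((pullPushAdj r).unit.app F)
      (cokernel.π ((pullPushAdj r).unit.app F)) (cokernel.condition _)
    refine ⟨S, { exact := ShortComplex.exact_of_g_is_cokernel _ (cokernelIsCokernel _) }, rfl,
      isLTorsion_of_epi (cokernel.π ((pullPushAdj r).unit.app F)) hE', hE',
      fun q => subsingleton_H_r hP E (q + 1) (by omega), ?_⟩
    intro q hq
    rcases Nat.eq_zero_or_pos q with rfl | hq'
    · rw [EtpbcA.LA.bijective_Hpull_zero_iff]
      have : IsIso ((pullPushAdj g).unit.app S.X₂) := isIso_unit_g h hP hr hloc hfib hE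
      exact bijAt_of_isIso _ _
    · have h1 : Subsingleton (H Y ((push r).obj E) q) := subsingleton_H_r hP E q hq'
      have h2 : Subsingleton (H X ((pull g).obj ((push r).obj E)) q) :=
        subsingleton_H_g h hP hr hloc hfib hE q hq' hq
      exact ⟨fun a b _ => @Subsingleton.elim _ h1 a b, fun b => ⟨0, @Subsingleton.elim _ h2 _ b⟩⟩
  refine Sga4B.ExtCmp.devissage (pull g) (EtCore.pullConst g ℤ).inv n (EtAcyc.IsLTorsion L)
    (EtAcyc.IsLTorsion L) ?_ ?_ (fun h => h) (fun q _ h => h) F hF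
  · intro F hF
    obtain ⟨S, hS, e, h3, h2, ha, -⟩ := main F hF
    exact ⟨S, hS, e, h3, h2, ha⟩
  · intro F hF
    obtain ⟨S, hS, e, h3, h2, -, hb⟩ := main F hF
    exact ⟨S, hS, e, h3, h2, (hb 0 (Nat.zero_le _)).1, fun q hq => (hb q hq).2⟩

end Groth.Agent.Etbc.H188.Core
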